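import Cfsg.Agent.Lib.Chev.BruhatNF
import Cfsg.Agent.Lib.Chev.FieldAut
import Cfsg.Agent.Lib.Chev.WeylPerm

/-!
Centralizers and normalizers of the groups between the subfield subgroup and the fixed points of a field
automorphism.
-/

set_option autoImplicit false
set_option linter.unusedSimpArgs false
set_option linter.unusedVariables false
set_option linter.unusedSectionVars false

namespace Cfsg.Agent.Lib.CT

open Cfsg Cfsg.Lie Cfsg.Agent.Lib.Chev
open Good2 (NN Um Ut)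

variable {D : ChevalleyDatum} {F : Type*} [Field F]

section Two

variable (G : Good2 D)
include G

theorem exists_neg_of_ne_one' (l : List (Fin D.rank)) (h : G.pp l ≠ 1) :
    ∃ i, ¬ NN D ≤ ((G.pp l)⁻¹ (G.ps i)).val := by
  obtain ⟨l', hl', e⟩ := G.exists_shortest (fun _ => True) l (by simp)
  rw [← e] at h ⊢
  cases l' with
  | nil => exact absurd rfl h
  | cons i m =>
    refine ⟨i, ?_⟩
    have hp := hl'.pos
    have e1 : G.pp (i :: m) = G.Wp i * G.pp m := by simp [Good2.pp]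
    have e2 : (G.Wp i)⁻¹ = G.Wp i := inv_eq_of_mul_eq_one_left (G.Wp_mul_self i)
    have e3 : (G.pp (i :: m))⁻¹ (G.ps i) = G.nf ((G.pp m)⁻¹ (G.ps i)) := by
      rw [e1, _root_.mul_inv_rev, Equiv.Perm.mul_apply, e2, G.Wp_ps, G.pp_inv, G.pp_nf]
    rw [e3, G.nf_pos_iff]
    exact not_not.mpr hp

theorem conj_B_zero (i : Fin D.rank) (c : F)
    (h : (G.nG i)⁻¹ * G.xg (G.simple_lt i.isLt) c * G.nG i ∈ D.borelSubgroup F) : c = 0 := by
  have hz := G.H_le_B (G.nG_sq_mem (F := F) i)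
  have e : G.nG i * G.xg (G.simple_lt i.isLt) c * (G.nG i)⁻¹ =
      (G.nG i * G.nG i) * ((G.nG i)⁻¹ * G.xg (G.simple_lt i.isLt) c * G.nG i) * (G.nG i * G.nG i)⁻¹ := by group
  have h1 : G.nG i * G.xg (G.simple_lt i.isLt) c * (G.nG i)⁻¹ ∈ D.borelSubgroup F := by
    rw [e]
    exact Subgroup.mul_mem _ (Subgroup.mul_mem _ hz h) (Subgroup.inv_mem _ hz)
  rw [G.nG_conj_x] at h1
  have h2 := G.x_neg_mem_B (G.W_lt i.isLt (G.simple_lt i.isLt)) (by
    rw [G.W_simple i.isLt]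
    exact (G.neg_pos (G.simple_lt i.isLt)).mp (G.simple_pos i.isLt)) h1
  rcases G.S_cases i.isLt (G.simple_lt i.isLt) with h3 | h3 <;> rw [h3] at h2 <;> simpa using h2

theorem Up_le_U (i : ℕ) : Up D F i ≤ D.posUnipotent F := rG_mono fun r h => h.1

theorem x_not_Up (i : Fin D.rank) {c : F} (h : G.xg (G.simple_lt i.isLt) c ∈ Up D F i) : c = 0 :=
  conj_B_zero G i c (G.U_le_B (Up_le_U G i (G.nG_inv_conj_Up i h)))

/-- The Borel subgroup normalizes `U_i`. -/
theorem B_le_norm_Up {i : ℕ} (hi : i < D.rank) :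
    D.borelSubgroup F ≤ Subgroup.normalizer (Up D F i : Set (GL D.Idx F)) := by
  refine sup_le ?_ (G.H_le_normalizer fun r h => h.1.1)
  rw [← G.Up_sup_X hi]
  exact sup_le Subgroup.le_normalizer (le_sup_left.trans (G.X_le_norm hi))

/-- The Borel subgroup normalizes `U`. -/
theorem B_le_norm_U : D.borelSubgroup F ≤ Subgroup.normalizer (D.posUnipotent F : Set (GL D.Idx F)) :=
  sup_le Subgroup.le_normalizer (G.H_le_normalizer fun r h => h.1)

theorem xg_inj' {r : ℕ} (hr : r < D.nroots) {s t : F} (h : G.xg hr s = G.xg hr t) : s = t := by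
  have h1 : G.xg hr (s + -t) = 1 := by
    rw [← G.xg_mul, h, G.xg_mul, add_neg_cancel, G.xg_zero]
  have := G.xg_eq_one hr h1
  exact add_neg_eq_zero.mp this

/-- An element commuting with the elements `x_p(1)` for the fundamental roots lies in the Borel subgroup. -/
theorem cent_mem_B {g : GL D.Idx F} (hg : g ∈ D.group F)
    (hc : ∀ i : Fin D.rank, G.xg (G.simple_lt i.isLt) (1 : F) * g = g * G.xg (G.simple_lt i.isLt) (1 : F)) :
    g ∈ D.borelSubgroup F := by
  obtain ⟨b, hb, n, hn, u, hu, rfl⟩ := G.normal_exists hg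
  have hnN0 : n ∈ G.N0 F := (G.monomial_eq (F := F)).le hn
  obtain ⟨l, hl, _⟩ := G.N0_conj_x hnN0
  have hw : G.pp l = 1 := by
    by_contra hne
    obtain ⟨i, hi⟩ := exists_neg_of_ne_one' G l hne
    set x := G.xg (G.simple_lt i.isLt) (1 : F) with hx
    have hxU : x ∈ D.posUnipotent F :=
      G.xg_mem (G.simple_lt i.isLt) ((G.pos_iff (G.simple_lt i.isLt)).mpr (G.simple_pos i.isLt)) _
    have huU := Good2.Um_le_U n hu
    have e : n * (u * x * u⁻¹) * n⁻¹ = b⁻¹ * x * b := by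
      have h0 := hc i
      rw [← hx] at h0
      calc n * (u * x * u⁻¹) * n⁻¹ = b⁻¹ * (b * n * u * x) * (b * n * u)⁻¹ * b := by group
        _ = b⁻¹ * (x * (b * n * u)) * (b * n * u)⁻¹ * b := by rw [h0]
        _ = _ := by group
    have hy : u * x * u⁻¹ ∈ D.posUnipotent F :=
      Subgroup.mul_mem _ (Subgroup.mul_mem _ huU hxU) (Subgroup.inv_mem _ huU)
    obtain ⟨a, ha, c, hc', ey⟩ := G.U_split (F := F)
      (P := fun r => ∃ hr : r < D.nroots, NN D ≤ r ∧ NN D ≤ (G.pp l ⟨r, hr⟩).val)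
      (Q := fun r => ∃ hr : r < D.nroots, NN D ≤ r ∧ ¬ NN D ≤ (G.pp l ⟨r, hr⟩).val)
      (fun r h => h.1) (fun r h => h.1) (by
        intro r hr hN
        by_cases h : NN D ≤ (G.pp l ⟨r, hr⟩).val
        · exact Or.inl ⟨hr, hN, h⟩
        · exact Or.inr ⟨hr, hN, h⟩) hy
    have h1 : n * a * n⁻¹ ∈ Up D F i := by
      refine G.N0_conj_rG (fun r h => h.1) hnN0 hl ?_ ha
      rintro r ⟨hr, h2, h3⟩
      refine G.QP_of (G.pp l r).isLt h3 ?_
      intro e5
      apply hi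
      have e6 : G.pp l r = G.ps i := Fin.ext e5
      have e7 : (G.pp l)⁻¹ (G.pp l r) = r := by simp
      rw [← e6, e7]
      exact h2
    have h2 : n * c * n⁻¹ ∈ D.negUnipotent F := by
      refine G.N0_conj_rG (fun r h => h.1) hnN0 hl ?_ hc'
      rintro r ⟨hr, h2, h3⟩
      exact (G.neg_iff (G.pp l r).isLt).mpr (not_le.mp h3)
    have h3 : n * (u * x * u⁻¹) * n⁻¹ = (n * a * n⁻¹) * (n * c * n⁻¹) := by
      rw [ey]
      group
    have hbx : b⁻¹ * x * b ∈ D.posUnipotent F := by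
      have h4 := (Subgroup.mem_normalizer_iff.mp (B_le_norm_U G (Subgroup.inv_mem _ hb)) x).mp hxU
      rwa [inv_inv] at h4
    have hUp1 : n * a * n⁻¹ ∈ D.posUnipotent F := Up_le_U G i h1
    have h5 : n * c * n⁻¹ ∈ D.borelSubgroup F ⊓ D.negUnipotent F := by
      refine ⟨G.U_le_B ?_, h2⟩
      have : n * c * n⁻¹ = (n * a * n⁻¹)⁻¹ * (b⁻¹ * x * b) := by
        rw [← e, h3]
        group
      rw [this]
      exact Subgroup.mul_mem _ (Subgroup.inv_mem _ hUp1) hbx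
    rw [G.B_inf_V, Subgroup.mem_bot] at h5
    have h6 : b⁻¹ * x * b = n * a * n⁻¹ := by
      rw [← e, h3, h5, mul_one]
    have h7 : b⁻¹ * x * b ∈ Up D F i := by
      rw [h6]
      exact h1
    have h8 : x ∈ Up D F i := by
      have h9 := (Subgroup.mem_normalizer_iff.mp (B_le_norm_Up G i.isLt hb) _).mp h7
      have e9 : b * (b⁻¹ * x * b) * b⁻¹ = x := by group
      rwa [e9] at h9
    have := x_not_Up G i h8
    exact one_ne_zero this
  have hH : n ∈ D.diagonalSubgroup F := G.H_of_isMono_one hnN0 (hw ▸ hl)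
  exact Subgroup.mul_mem _ (Subgroup.mul_mem _ hb (G.H_le_B hH)) (G.U_le_B (Good2.Um_le_U n hu))

theorem H_comm_one {g : GL D.Idx F} (hg : g ∈ D.diagonalSubgroup F)
    (hc : ∀ (r : ℕ) (hr : r < D.nroots), G.xg hr (1 : F) * g = g * G.xg hr (1 : F)) : g = 1 := by
  obtain ⟨χ, hχ, hM, hconj⟩ := G.H_conj hg
  have h1 : ∀ s : Fin D.nroots, χ s.val = 1 := by
    intro s
    have e := hconj s.val s.isLt 1
    have e2 := hc s.val s.isLt
    rw [mul_one, ← e2, mul_inv_cancel_right] at e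
    exact (xg_inj' G s.isLt e).symm
  apply G.H_eq_one hg
  intro s
  rw [hM]
  simp [dgM, h1 s]

theorem nG_prod (i : Fin D.rank) : (G.nG i : GL D.Idx F) =
    G.xg (G.simple_lt i.isLt) 1 * G.xg (G.neg_lt (G.simple_lt i.isLt)) (-1) * G.xg (G.simple_lt i.isLt) 1 := by
  rw [G.nG_eq]
  have e := G.xnp_eq (F := F) i.isLt (u := -1) (by simp)
  simp only [inv_neg, inv_one, neg_neg] at e
  have a : G.xg (G.simple_lt i.isLt) (1 : F) * G.xg (G.simple_lt i.isLt) (-1) = 1 := by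
    rw [G.xg_mul, add_neg_cancel, G.xg_zero]
  have b : G.xg (G.simple_lt i.isLt) (-1) * G.xg (G.simple_lt i.isLt) (1 : F) = 1 := by
    rw [G.xg_mul, neg_add_cancel, G.xg_zero]
  rw [e]
  calc G.nrU (G.simple_lt i.isLt) (1 : F)
      = (G.xg (G.simple_lt i.isLt) (1 : F) * G.xg (G.simple_lt i.isLt) (-1)) * G.nrU (G.simple_lt i.isLt) (1 : F) *
        (G.xg (G.simple_lt i.isLt) (-1) * G.xg (G.simple_lt i.isLt) (1 : F)) := by rw [a, b, one_mul, mul_one]
    _ = _ := by simp only [mul_assoc]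

end Two

section Three

variable (G : Good3 D)
include G

/-- Elements of the Borel subgroup which stay there under conjugation by the longest element are in `H`. -/
theorem B_n0_H {g : GL D.Idx F} (h3 : g ∈ D.borelSubgroup F)
    (h4 : (G.n0 : GL D.Idx F)⁻¹ * g * G.n0 ∈ D.borelSubgroup F) : g ∈ D.diagonalSubgroup F := by
  obtain ⟨u, hu, k, hk, e⟩ := G.toGood2.B_form.mp h4
  have h5 : g = (G.n0 * u * G.n0⁻¹) * (G.n0 * k * G.n0⁻¹) := by
    have : g = G.n0 * ((G.n0 : GL D.Idx F)⁻¹ * g * G.n0) * G.n0⁻¹ := by group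
    rw [this, e]
    group
  have h6 : (G.n0 * u * G.n0⁻¹ : GL D.Idx F) ∈ D.negUnipotent F := by
    rw [← G.n0_conj]
    exact ⟨u, hu, rfl⟩
  have h7 : (G.n0 * k * G.n0⁻¹ : GL D.Idx F) ∈ D.diagonalSubgroup F := G.toGood2.N0_conj_H G.n0_mem hk
  have h8 : g ∈ D.borelSubgroup F ⊓ (D.negUnipotent F ⊔ D.diagonalSubgroup F) := by
    refine ⟨h3, ?_⟩
    rw [h5]
    exact Subgroup.mul_mem _ (Subgroup.mem_sup_left h6) (Subgroup.mem_sup_right h7)
  rwa [G.toGood2.B_inf_VH] at h8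

/-- The element of the group commuting with all `x_r(1)` is trivial. -/
theorem cent_one {g : GL D.Idx F} (hg : g ∈ D.group F)
    (hc : ∀ (r : ℕ) (hr : r < D.nroots), G.xg hr (1 : F) * g = g * G.xg hr (1 : F)) : g = 1 := by
  have hB : g ∈ D.borelSubgroup F := cent_mem_B G.toGood2 hg fun i => hc _ _
  have hc' : ∀ (r : ℕ) (hr : r < D.nroots), G.xg hr (-1 : F) * g = g * G.xg hr (-1 : F) := by
    intro r hr
    have e := hc r hr
    rw [← G.xg_inv]
    rw [eq_mul_inv_iff_mul_eq, mul_assoc, inv_mul_eq_iff_eq_mul, e]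
  have hn : ∀ i : Fin D.rank, (G.toGood2.nG i : GL D.Idx F) * g = g * G.toGood2.nG i := by
    intro i
    rw [nG_prod G.toGood2 i]
    have hA := hc _ (G.simple_lt i.isLt)
    have hB' := hc' _ (G.neg_lt (G.simple_lt i.isLt))
    calc G.xg (G.simple_lt i.isLt) (1 : F) * G.xg (G.neg_lt (G.simple_lt i.isLt)) (-1) * G.xg (G.simple_lt i.isLt) 1 * g
        = G.xg (G.simple_lt i.isLt) (1 : F) * G.xg (G.neg_lt (G.simple_lt i.isLt)) (-1) * (G.xg (G.simple_lt i.isLt) 1 * g) := by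
          simp only [mul_assoc]
      _ = G.xg (G.simple_lt i.isLt) (1 : F) * (G.xg (G.neg_lt (G.simple_lt i.isLt)) (-1) * g) * G.xg (G.simple_lt i.isLt) 1 := by
          rw [hA]
          simp only [mul_assoc]
      _ = (G.xg (G.simple_lt i.isLt) (1 : F) * g) * G.xg (G.neg_lt (G.simple_lt i.isLt)) (-1) * G.xg (G.simple_lt i.isLt) 1 := by
          rw [hB']
          simp only [mul_assoc]
      _ = _ := by
          rw [hA]
          simp only [mul_assoc]
  have hw : ∀ l : List (Fin D.rank), (G.toGood2.nw l : GL D.Idx F) * g = g * G.toGood2.nw l := by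
    intro l
    induction l with
    | nil => simp [Good2.nw]
    | cons i l ih =>
      have e1 : (G.toGood2.nw (i :: l) : GL D.Idx F) = G.toGood2.nG i * G.toGood2.nw l := by simp [Good2.nw]
      rw [e1, mul_assoc, ih, ← mul_assoc, hn, mul_assoc]
  have h4 : (G.n0 : GL D.Idx F)⁻¹ * g * G.n0 = g := by
    have := hw G.w0F
    rw [mul_assoc, inv_mul_eq_iff_eq_mul]
    exact this.symm
  have hH := B_n0_H G hB (by rw [h4]; exact hB)
  exact H_comm_one G.toGood2 hH hc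

end Three

section Fix

variable (σ : F ≃+* F)

theorem x_map_any (r : ℕ) (t : F) : (D.x F r t).map σ = D.x F r (σ t) := by
  unfold ChevalleyDatum.x
  split_ifs with h
  · exact xMat_map σ ⟨r, h⟩ t
  · simp

theorem word_map (w : List (ℕ × F)) :
    (D.wordMat F w).map σ = D.wordMat F (w.map fun a => (a.1, σ a.2)) := by
  induction w with
  | nil => simp [ChevalleyDatum.wordMat]
  | cons a w ih =>
    have e : ∀ w' : List (ℕ × F), D.wordMat F (a :: w') = D.x F a.1 a.2 * D.wordMat F w' := by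
      intro w'
      simp [ChevalleyDatum.wordMat]
    have e' : ∀ w' : List (ℕ × F), D.wordMat F ((a.1, σ a.2) :: w') = D.x F a.1 (σ a.2) * D.wordMat F w' := by
      intro w'
      simp [ChevalleyDatum.wordMat]
    rw [e, List.map_cons, e', Matrix.map_mul, x_map_any, ih]

theorem glMap_rG {P : ℕ → Prop} {g : GL D.Idx F} (hg : g ∈ rG D F P) : glMap σ g ∈ rG D F P := by
  refine Subgroup.closure_induction (p := fun (g : GL D.Idx F) _ => glMap σ g ∈ rG D F P) ?_ ?_ ?_ ?_ hg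
  · rintro g ⟨r, t, hP, h⟩
    apply Subgroup.subset_closure
    refine ⟨r, σ t, hP, ?_⟩
    rw [glMap_val, h, x_map_any]
  · simp [Subgroup.one_mem]
  · intro a b _ _ ha hb
    rw [map_mul]
    exact Subgroup.mul_mem _ ha hb
  · intro a _ ha
    rw [map_inv]
    exact Subgroup.inv_mem _ ha

theorem glMap_H {g : GL D.Idx F} (hg : g ∈ D.diagonalSubgroup F) : glMap σ g ∈ D.diagonalSubgroup F := by
  refine Subgroup.closure_induction (p := fun (g : GL D.Idx F) _ => glMap σ g ∈ D.diagonalSubgroup F) ?_ ?_ ?_ ?_ hg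
  · rintro g ⟨r, t, hr, ht, h⟩
    apply Subgroup.subset_closure
    refine ⟨r, σ t, hr, (map_ne_zero σ).mpr ht, ?_⟩
    rw [glMap_val, h, ChevalleyDatum.hMat, word_map, ChevalleyDatum.hMat]
    simp [ChevalleyDatum.hWord, ChevalleyDatum.nWord]
  · simp [Subgroup.one_mem]
  · intro a b _ _ ha hb
    rw [map_mul]
    exact Subgroup.mul_mem _ ha hb
  · intro a _ ha
    rw [map_inv]
    exact Subgroup.inv_mem _ ha

theorem glMap_Um {n u : GL D.Idx F} (hu : u ∈ Um D F n) : glMap σ u ∈ Um D F n := by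
  refine Subgroup.closure_induction (p := fun (g : GL D.Idx F) _ => glMap σ g ∈ Um D F n) ?_ ?_ ?_ ?_ hu
  · rintro g ⟨r, t, h1, h2, h⟩
    apply Subgroup.subset_closure
    refine ⟨r, σ t, h1, h2, ?_⟩
    rw [glMap_val, h, x_map_any]
  · simp [Subgroup.one_mem]
  · intro a b _ _ ha hb
    rw [map_mul]
    exact Subgroup.mul_mem _ ha hb
  · intro a _ ha
    rw [map_inv]
    exact Subgroup.inv_mem _ ha

variable (G : Good2 D)
include G

theorem glMap_xg {r : ℕ} (hr : r < D.nroots) (t : F) : glMap σ (G.xg hr t) = G.xg hr (σ t) :=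
  Units.ext (by rw [glMap_val, G.xg_val, x_map_any, G.xg_val])

theorem glMap_B {b : GL D.Idx F} (hb : b ∈ D.borelSubgroup F) : glMap σ b ∈ D.borelSubgroup F := by
  obtain ⟨u, hu, k, hk, rfl⟩ := G.B_form.mp hb
  rw [map_mul]
  exact Subgroup.mul_mem _ (G.U_le_B (glMap_rG σ hu)) (G.H_le_B (glMap_H σ hk))

/-- The subgroup generated by the root elements with fixed parameters. -/
def Lf (G : Good2 D) (σ : F ≃+* F) : Subgroup (GL D.Idx F) :=
  Subgroup.closure {g | ∃ (r : ℕ) (hr : r < D.nroots) (t : F), σ t = t ∧ g = G.xg hr t}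

theorem xg_mem_Lf {r : ℕ} (hr : r < D.nroots) {t : F} (ht : σ t = t) : G.xg hr t ∈ Lf G σ :=
  Subgroup.subset_closure ⟨r, hr, t, ht, rfl⟩

theorem glMap_nG (i : Fin D.rank) : glMap σ (G.nG i) = G.nG i := by
  rw [nG_prod G, map_mul, map_mul, glMap_xg σ G, glMap_xg σ G, map_one, map_neg, map_one]

theorem glMap_nw (l : List (Fin D.rank)) : glMap σ (G.nw l) = G.nw l := by
  induction l with
  | nil => simp [Good2.nw]
  | cons i l ih =>
    have e1 : (G.nw (i :: l) : GL D.Idx F) = G.nG i * G.nw l := by simp [Good2.nw]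
    rw [e1, map_mul, glMap_nG σ G, ih]

theorem nw_mem_Lf (l : List (Fin D.rank)) : G.nw l ∈ Lf G σ := by
  induction l with
  | nil => simp [Good2.nw, Subgroup.one_mem]
  | cons i l ih =>
    have e1 : (G.nw (i :: l) : GL D.Idx F) = G.nG i * G.nw l := by simp [Good2.nw]
    rw [e1]
    refine Subgroup.mul_mem _ ?_ ih
    rw [nG_prod G]
    exact Subgroup.mul_mem _ (Subgroup.mul_mem _ (xg_mem_Lf σ G _ (map_one σ))
      (xg_mem_Lf σ G _ (by rw [map_neg, map_one]))) (xg_mem_Lf σ G _ (map_one σ))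

/-- The normal form with a word in the `n_i`. -/
theorem normal_nw {g : GL D.Idx F} (hg : g ∈ D.group F) :
    ∃ b ∈ D.borelSubgroup F, ∃ l, ∃ u ∈ Um D F (G.nw l), g = b * G.nw l * u := by
  obtain ⟨b, hb, n, hn, u, hu, rfl⟩ := G.normal_exists hg
  have hnN0 : n ∈ G.N0 F := (G.monomial_eq (F := F)).le hn
  obtain ⟨h, hh, l, rfl⟩ := G.N0_form hnN0
  refine ⟨b * h, Subgroup.mul_mem _ hb (G.H_le_B hh), l, u, ?_, by group⟩
  refine Subgroup.closure_mono ?_ hu
  rintro x ⟨r, t, h1, h2, h3⟩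
  refine ⟨r, t, h1, ?_, h3⟩
  rintro _ ⟨y, hy, rfl⟩
  have h4 : (MulAut.conj (h * G.nw l)).toMonoidHom y ∈ D.negUnipotent F := h2 ⟨y, hy, rfl⟩
  have h5 := G.V_conj (Subgroup.inv_mem _ hh) h4
  have e : h⁻¹ * (MulAut.conj (h * G.nw l)).toMonoidHom y * h⁻¹⁻¹ = (MulAut.conj (G.nw l)).toMonoidHom y := by
    simp only [MulEquiv.coe_toMonoidHom, MulAut.conj_apply]
    group
  rwa [e] at h5

/-- Fixed elements of `U` are products of fixed root elements. -/
theorem U_fixed_aux (k : ℕ) : ∀ m, m + k = D.nroots → NN D ≤ m → ∀ g : GL D.Idx F, g ∈ Ut D F m →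
    glMap σ g = g → g ∈ Lf G σ := by
  induction k with
  | zero =>
    intro m hm hN g hg _
    have e : m = D.nroots := by omega
    subst e
    rw [G.Ut_top_bot, Subgroup.mem_bot] at hg
    rw [hg]
    exact Subgroup.one_mem _
  | succ k ih =>
    intro m hm hN g hg hf
    have hlt : m < D.nroots := by omega
    obtain ⟨t, g', hg', rfl⟩ := G.Ut_decomp hlt hN hg
    rw [map_mul, glMap_xg σ G] at hf
    have h1 : G.xg hlt (-t) * G.xg hlt (σ t) = g' * (glMap σ g')⁻¹ := by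
      have e : G.xg hlt (-t) * G.xg hlt t = 1 := by rw [G.xg_mul, neg_add_cancel, G.xg_zero]
      calc G.xg hlt (-t) * G.xg hlt (σ t)
          = G.xg hlt (-t) * (G.xg hlt (σ t) * glMap σ g') * (glMap σ g')⁻¹ := by group
        _ = G.xg hlt (-t) * (G.xg hlt t * g') * (glMap σ g')⁻¹ := by rw [hf]
        _ = (G.xg hlt (-t) * G.xg hlt t) * g' * (glMap σ g')⁻¹ := by group
        _ = _ := by rw [e, one_mul]
    rw [G.xg_mul] at h1
    have h2 : G.xg hlt (-t + σ t) ∈ Ut D F (m + 1) := by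
      rw [h1]
      exact Subgroup.mul_mem _ hg' (Subgroup.inv_mem _ (glMap_rG σ hg'))
    have h3 := G.xg_mem_Ut_eq hlt hN h2
    have h4 : σ t = t := by
      have : -t + σ t = 0 := h3
      linear_combination this
    rw [h4] at hf
    have h5 : glMap σ g' = g' := mul_left_cancel hf
    exact Subgroup.mul_mem _ (xg_mem_Lf σ G hlt h4) (ih (m + 1) (by omega) (by omega) g' hg' h5)

theorem U_fixed {g : GL D.Idx F} (hg : g ∈ D.posUnipotent F) (hf : glMap σ g = g) : g ∈ Lf G σ := by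
  rw [posUnipotent_eq, G.pos_eq_Ut] at hg
  exact U_fixed_aux σ G (NN D) (NN D) G.NN_add le_rfl g hg hf

/-- Fixed elements of `H` normalize the subgroup generated by the fixed root elements. -/
theorem H_fix_conj {h : GL D.Idx F} (hh : h ∈ D.diagonalSubgroup F) (hf : glMap σ h = h) {l : GL D.Idx F}
    (hl : l ∈ Lf G σ) : h * l * h⁻¹ ∈ Lf G σ := by
  obtain ⟨χ, hχ, hM, hconj⟩ := G.H_conj hh
  have hχσ : ∀ (r : ℕ) (hr : r < D.nroots), σ (χ r) = χ r := by
    intro r hr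
    have e := hconj r hr 1
    have e2 := congrArg (glMap σ) e
    rw [map_mul, map_mul, map_inv, hf, glMap_xg σ G, glMap_xg σ G, map_one, e, mul_one] at e2
    exact (xg_inj' G hr e2).symm
  refine Subgroup.closure_induction (p := fun (g : GL D.Idx F) _ => h * g * h⁻¹ ∈ Lf G σ) ?_ ?_ ?_ ?_ hl
  · rintro g ⟨r, hr, t, ht, rfl⟩
    rw [hconj]
    exact xg_mem_Lf σ G hr (by rw [map_mul, hχσ r hr, ht])
  · simp [Subgroup.one_mem]
  · intro a b _ _ ha hb
    have e : h * (a * b) * h⁻¹ = (h * a * h⁻¹) * (h * b * h⁻¹) := by group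
    rw [e]
    exact Subgroup.mul_mem _ ha hb
  · intro a _ ha
    have e : h * a⁻¹ * h⁻¹ = (h * a * h⁻¹)⁻¹ := by group
    rw [e]
    exact Subgroup.inv_mem _ ha

/-- The form of a fixed element of the group. -/
theorem fixed_form {g : GL D.Idx F} (hg : g ∈ D.group F) (hf : glMap σ g = g) :
    ∃ l ∈ Lf G σ, ∃ h ∈ D.diagonalSubgroup F, glMap σ h = h ∧ g = l * h := by
  obtain ⟨b, hb, l, u, hu, rfl⟩ := normal_nw G hg
  have hnw := glMap_nw σ G (F := F) l
  rw [map_mul, map_mul, hnw] at hf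
  have hnN : (G.nw l : GL D.Idx F) ∈ D.monomialSubgroup F := by
    rw [G.monomial_eq]
    exact G.nw_mem_N0 l
  obtain ⟨e1, e2⟩ := (G.normal_unique (glMap_B σ G hb) hb hnN hnN (glMap_Um σ hu) hu hf).2 rfl
  obtain ⟨u₁, hu₁, k, hk, rfl⟩ := G.B_form.mp hb
  rw [map_mul] at e1
  have h1 : u₁⁻¹ * glMap σ u₁ = k * (glMap σ k)⁻¹ := by
    calc u₁⁻¹ * glMap σ u₁ = u₁⁻¹ * (glMap σ u₁ * glMap σ k) * (glMap σ k)⁻¹ := by group
      _ = u₁⁻¹ * (u₁ * k) * (glMap σ k)⁻¹ := by rw [e1]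
      _ = _ := by group
  have h2 : u₁⁻¹ * glMap σ u₁ ∈ D.posUnipotent F ⊓ D.diagonalSubgroup F := by
    refine ⟨Subgroup.mul_mem _ (Subgroup.inv_mem _ hu₁) (glMap_rG σ hu₁), ?_⟩
    rw [h1]
    exact Subgroup.mul_mem _ hk (Subgroup.inv_mem _ (glMap_H σ hk))
  rw [G.U_inf_H, Subgroup.mem_bot] at h2
  have h3 : glMap σ u₁ = u₁ := (inv_mul_eq_one.mp h2).symm
  have h4 : glMap σ k = k := by
    rw [h3] at e1
    exact mul_left_cancel e1
  have hU1 := U_fixed σ G hu₁ h3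
  have hU2 := U_fixed σ G (Good2.Um_le_U _ hu) e2
  refine ⟨u₁ * (k * G.nw l * k⁻¹) * (k * u * k⁻¹), ?_, k, hk, h4, by group⟩
  exact Subgroup.mul_mem _ (Subgroup.mul_mem _ hU1 (H_fix_conj σ G hk h4 (nw_mem_Lf σ G l)))
    (H_fix_conj σ G hk h4 hU2)

/-- Commutators of fixed elements lie in the subgroup generated by the fixed root elements. -/
theorem comm_mem_Lf {a b : GL D.Idx F} (ha : a ∈ D.group F) (hfa : glMap σ a = a) (hb : b ∈ D.group F)
    (hfb : glMap σ b = b) : a * b * a⁻¹ * b⁻¹ ∈ Lf G σ := by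
  obtain ⟨l₁, hl₁, h₁, hh₁, hf₁, rfl⟩ := fixed_form σ G ha hfa
  obtain ⟨l₂, hl₂, h₂, hh₂, hf₂, rfl⟩ := fixed_form σ G hb hfb
  have hc := G.H_comm hh₁ hh₂
  have e : l₁ * h₁ * (l₂ * h₂) * (l₁ * h₁)⁻¹ * (l₂ * h₂)⁻¹ =
      l₁ * (h₁ * l₂ * h₁⁻¹) * (h₂ * l₁⁻¹ * h₂⁻¹) * l₂⁻¹ := by
    have e2 : h₁ * h₂ * h₁⁻¹ = h₂ := by rw [hc]; group
    calc l₁ * h₁ * (l₂ * h₂) * (l₁ * h₁)⁻¹ * (l₂ * h₂)⁻¹
        = l₁ * (h₁ * l₂ * h₁⁻¹) * (h₁ * h₂ * h₁⁻¹) * l₁⁻¹ * h₂⁻¹ * l₂⁻¹ := by group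
      _ = _ := by rw [e2]; group
  rw [e]
  exact Subgroup.mul_mem _ (Subgroup.mul_mem _ (Subgroup.mul_mem _ hl₁ (H_fix_conj σ G hh₁ hf₁ hl₂))
    (H_fix_conj σ G hh₂ hf₂ (Subgroup.inv_mem _ hl₁))) (Subgroup.inv_mem _ hl₂)

end Fix

/-- Centralizers and normalizers of groups between the subfield subgroup and the fixed points. -/
theorem norm_cent (G : Good3 D) (σ : F ≃+* F) (K : Subgroup (GL D.Idx F)) (hKG : K ≤ D.group F)
    (hLK : Lf G.toGood2 σ ≤ K) (hKfix : ∀ x ∈ K, glMap σ x = x) :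
    D.group F ⊓ Subgroup.centralizer (K : Set (GL D.Idx F)) = ⊥ ∧
      ∀ g : GL D.Idx F, g ∈ D.group F → (g ∈ Subgroup.normalizer (K : Set (GL D.Idx F)) ↔ glMap σ g = g) := by
  have hone : ∀ {c : GL D.Idx F}, c ∈ D.group F → (∀ x ∈ K, x * c = c * x) → c = 1 := by
    intro c hc h
    exact cent_one G hc fun r hr => h _ (hLK (xg_mem_Lf σ G.toGood2 hr (map_one σ)))
  constructor
  · rw [eq_bot_iff]
    rintro g ⟨hg, hc⟩
    rw [Subgroup.mem_bot]
    exact hone hg fun x hx => (Subgroup.mem_centralizer_iff.mp hc) x hx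
  · intro g hg
    constructor
    · intro hN
      have hc : g⁻¹ * glMap σ g ∈ D.group F := Subgroup.mul_mem _ (Subgroup.inv_mem _ hg) (glMap_group_le σ hg)
      have h1 := hone hc (by
        intro x hx
        have hy := hKfix _ ((Subgroup.mem_normalizer_iff.mp hN x).mp hx)
        rw [map_mul, map_mul, map_inv, hKfix x hx] at hy
        calc x * (g⁻¹ * glMap σ g) = g⁻¹ * (g * x * g⁻¹) * glMap σ g := by group
          _ = g⁻¹ * (glMap σ g * x * (glMap σ g)⁻¹) * glMap σ g := by rw [hy]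
          _ = _ := by group)
      exact (inv_mul_eq_one.mp h1).symm
    · intro hf
      have key : ∀ g' : GL D.Idx F, g' ∈ D.group F → glMap σ g' = g' → ∀ x ∈ K, g' * x * g'⁻¹ ∈ K := by
        intro g' hg' hf' x hx
        have e : g' * x * g'⁻¹ = (g' * x * g'⁻¹ * x⁻¹) * x := by group
        rw [e]
        exact Subgroup.mul_mem _ (hLK (comm_mem_Lf σ G.toGood2 hg' hf' (hKG hx) (hKfix x hx))) hx
      rw [Subgroup.mem_normalizer_iff]
      intro x
      constructor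
      · exact key g hg hf x
      · intro h
        have h2 := key g⁻¹ (Subgroup.inv_mem _ hg) (by rw [map_inv, hf]) _ h
        have e : g⁻¹ * (g * x * g⁻¹) * g⁻¹⁻¹ = x := by group
        rwa [e] at h2

end Cfsg.Agent.Lib.CT
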